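import Cfsg.Agent.OrthTwoSylow.Basic

/-! Sylow 2-subgroups of an orthogonal group of plus type over two elements meet non-trivially. -/

set_option autoImplicit false

namespace Cfsg.Agent.OrthTwoSylow

open QuadraticMap

universe u v

variable {F : Type u} [Field F] [Fintype F] [CharP F 2] {W : Type v} [AddCommGroup W] [Module F W] [Finite W]
  {Q : QuadraticForm F W}

variable (Q)

/-- A plus type space of dimension `2j`, numerically. -/
structure PlusData (j : ℕ) : Prop where
  nondeg : ∀ v : W, v ≠ 0 → ∃ w, polar Q v w ≠ 0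
  card : Nat.card W = 4 ^ j
  zeros : 2 * Nat.card {v : W // Q v = 0} = 4 ^ j + 2 ^ j

/-- The orthogonal complement of a pair. -/
def perpPair (p a : W) : Submodule F W :=
  LinearMap.ker (polarBilin Q p) ⊓ LinearMap.ker (polarBilin Q a)

variable {Q}

theorem mem_perpPair {p a v : W} : v ∈ perpPair Q p a ↔ polar Q p v = 0 ∧ polar Q a v = 0 := Iff.rfl

/-- Splitting off a hyperbolic pair. -/
noncomputable def splitEquiv {p a : W} (hpa : polar Q p a = 1) :
    W ≃ perpPair Q p a × F × F where
  toFun v := (⟨v + polar Q a v • p + polar Q p v • a, mem_perpPair.2 (by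
    have hap : polar Q a p = 1 := by rw [polar_comm]; exact hpa
    constructor
    · simp only [polar_add_right, polar_smul_right, polar_self_zero, hpa, smul_eq_mul, mul_zero, mul_one, add_zero]
      exact CharTwo.add_self_eq_zero _
    · simp only [polar_add_right, polar_smul_right, polar_self_zero, hap, smul_eq_mul, mul_zero, mul_one, add_zero]
      exact CharTwo.add_self_eq_zero _)⟩, polar Q a v, polar Q p v)
  invFun x := (x.1 : W) + x.2.1 • p + x.2.2 • a
  left_inv v := by
    calc v + polar Q a v • p + polar Q p v • a + polar Q a v • p + polar Q p v • a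
        = v + (polar Q a v • p + polar Q a v • p) + (polar Q p v • a + polar Q p v • a) := by abel
      _ = v := by rw [add_self_W F, add_self_W F, add_zero, add_zero]
  right_inv x := by
    obtain ⟨⟨w, hw⟩, c, d⟩ := x
    obtain ⟨hw1, hw2⟩ := mem_perpPair.1 hw
    have hap : polar Q a p = 1 := by rw [polar_comm]; exact hpa
    have e1 : polar Q a (w + c • p + d • a) = c := by
      simp [polar_add_right, polar_smul_right, CharTwo.two_eq_zero, hap, hw2]
    have e2 : polar Q p (w + c • p + d • a) = d := by
      simp [polar_add_right, polar_smul_right, CharTwo.two_eq_zero, hpa, hw1]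
    refine Prod.ext (Subtype.ext ?_) (Prod.ext e1 e2)
    show w + c • p + d • a + polar Q a (w + c • p + d • a) • p + polar Q p (w + c • p + d • a) • a = w
    rw [e1, e2]
    calc w + c • p + d • a + c • p + d • a = w + (c • p + c • p) + (d • a + d • a) := by abel
      _ = w := by rw [add_self_W F, add_self_W F, add_zero, add_zero]

theorem form_split {p a : W} (hp : Q p = 0) (ha : Q a = 0) (hpa : polar Q p a = 1)
    (x : perpPair Q p a × F × F) : Q ((splitEquiv hpa).symm x) = Q x.1 + x.2.1 * x.2.2 := by
  obtain ⟨⟨w, hw⟩, c, d⟩ := x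
  obtain ⟨hw1, hw2⟩ := mem_perpPair.1 hw
  show Q (w + c • p + d • a) = _
  have hpol : ∀ x y, Q (x + y) = Q x + Q y + polar Q x y := fun x y => by simp [polar]
  simp [hpol, QuadraticMap.map_smul, hp, ha, polar_add_left, polar_smul_left, polar_smul_right,
    (polar_comm Q w p).trans hw1, (polar_comm Q w a).trans hw2, hpa]
  ring

/-- Counting the zeros of a sum with a hyperbolic pair. -/
theorem card_zeros_add (hF : Fintype.card F = 2) {X : Type*} [Finite X] (f : X → F) :
    Nat.card {x : X × F × F // f x.1 + x.2.1 * x.2.2 = 0} = 2 * Nat.card {x // f x = 0} + Nat.card X := by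
  classical
  haveI := Fintype.ofFinite X
  have h3 : ∀ c : F, Nat.card {y : F × F // c + y.1 * y.2 = 0} = if c = 0 then 3 else 1 := by
    intro c
    rcases eq_zero_or_one hF c with rfl | rfl
    · rw [if_pos rfl]
      rw [Nat.card_congr (Equiv.subtypeEquivRight (q := fun y : F × F => y ≠ (1, 1)) ?_), Nat.card_eq_fintype_card,
        Fintype.card_subtype_compl, Fintype.card_subtype_eq, Fintype.card_prod, hF]
      intro y
      obtain ⟨s, t⟩ := y
      rcases eq_zero_or_one hF s with rfl | rfl <;> rcases eq_zero_or_one hF t with rfl | rfl <;> simp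
    · rw [if_neg one_ne_zero]
      rw [Nat.card_congr (Equiv.subtypeEquivRight (q := fun y : F × F => y = (1, 1)) ?_), Nat.card_unique]
      intro y
      obtain ⟨s, t⟩ := y
      rcases eq_zero_or_one hF s with rfl | rfl <;> rcases eq_zero_or_one hF t with rfl | rfl <;>
        simp [add_self_F hF]
  let e : {x : X × F × F // f x.1 + x.2.1 * x.2.2 = 0} ≃ Σ x : X, {y : F × F // f x + y.1 * y.2 = 0} :=
    { toFun := fun z => ⟨z.1.1, z.1.2, z.2⟩
      invFun := fun z => ⟨(z.1, z.2.1), z.2.2⟩
      left_inv := fun _ => rfl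
      right_inv := fun _ => rfl }
  rw [Nat.card_congr e, Nat.card_sigma]
  simp only [h3]
  rw [Nat.card_eq_fintype_card, Nat.card_eq_fintype_card, Fintype.card_subtype, Fintype.card_eq_sum_ones,
    Finset.card_filter, Finset.mul_sum, ← Finset.sum_add_distrib]
  exact Finset.sum_congr rfl fun x _ => by split_ifs <;> rfl

theorem plusData_perp (hF : Fintype.card F = 2) {j : ℕ} (h : PlusData Q (j + 1)) {p a : W}
    (hp : Q p = 0) (ha : Q a = 0) (hpa : polar Q p a = 1) :
    PlusData (Q.comp (perpPair Q p a).subtype) j := by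
  have hc : Nat.card (perpPair Q p a) = 4 ^ j := by
    have h1 := Nat.card_congr (splitEquiv hpa)
    rw [h.card, Nat.card_prod, Nat.card_prod, Nat.card_eq_fintype_card (α := F), hF, pow_succ] at h1
    omega
  refine ⟨fun v hv => ?_, hc, ?_⟩
  · obtain ⟨hv1, hv2⟩ := mem_perpPair.1 v.2
    obtain ⟨w, hw⟩ := h.nondeg (v : W) (fun e => hv (Subtype.ext e))
    obtain ⟨x, rfl⟩ := (splitEquiv hpa).symm.surjective w
    refine ⟨x.1, ?_⟩
    intro e
    apply hw
    show polar Q (v : W) ((x.1 : W) + x.2.1 • p + x.2.2 • a) = 0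
    have e' : polar Q (v : W) x.1 = 0 := e
    simp [polar_add_right, polar_smul_right, e', (polar_comm Q (v : W) p).trans hv1,
      (polar_comm Q (v : W) a).trans hv2]
  · have h1 : Nat.card {v : W // Q v = 0}
        = Nat.card {x : perpPair Q p a × F × F // Q x.1 + x.2.1 * x.2.2 = 0} := by
      refine Nat.card_congr ((splitEquiv hpa).subtypeEquiv fun v => ?_)
      rw [← form_split hp ha hpa, Equiv.symm_apply_apply]
    have h2 := h.zeros
    rw [h1, card_zeros_add hF (f := fun x : perpPair Q p a => Q x), hc] at h2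
    show 2 * Nat.card {v : perpPair Q p a // Q v = 0} = _
    rw [pow_succ (4 : ℕ) j, pow_succ 2 j] at h2
    omega

theorem exists_partner {j : ℕ} (hF : Fintype.card F = 2) (h : PlusData Q j) {p : W} (hp : Q p = 0)
    (hp0 : p ≠ 0) : ∃ a, Q a = 0 ∧ polar Q p a = 1 := by
  obtain ⟨w, hw⟩ := h.nondeg p hp0
  have hw1 := (eq_zero_or_one hF (polar Q p w)).resolve_left hw
  rcases eq_zero_or_one hF (Q w) with h0 | h1
  · exact ⟨w, h0, hw1⟩
  · refine ⟨w + p, ?_, ?_⟩
    · have : Q (w + p) = Q w + Q p + polar Q w p := by simp [polar]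
      rw [this, h1, hp, polar_comm, hw1, add_zero, add_self_F hF]
    · rw [polar_add_right, hw1, polar_self_zero, add_zero]

/-- A 2-group of isometries fixes a singular vector when `j ≥ 2`. -/
theorem exists_fixed_singular {j : ℕ} (hj : 2 ≤ j) (h : PlusData Q j) {H : Subgroup (Iso Q)} (hH : IsPGroup 2 H) :
    ∃ p : W, p ≠ 0 ∧ Q p = 0 ∧ ∀ g ∈ H, g.1 p = p := by
  classical
  haveI : Fact (Nat.Prime 2) := ⟨Nat.prime_two⟩
  let X := {v : W // v ≠ 0 ∧ Q v = 0}
  letI : MulAction H X :=
    { smul := fun g v => ⟨g.1.1 v.1, fun e => v.2.1 (g.1.1.map_eq_zero_iff.1 e), (g.1.2 v.1).trans v.2.2⟩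
      one_smul := fun v => rfl
      mul_smul := fun g g' v => rfl }
  have hcard : Nat.card {v : W // Q v = 0} = Nat.card X + 1 := by
    let e : {v : W // Q v = 0} ≃ Option X :=
      { toFun := fun v => if hv : v.1 = 0 then none else some ⟨v.1, hv, v.2⟩
        invFun := fun o => match o with
          | none => ⟨0, map_zero _⟩
          | some x => ⟨x.1, x.2.2⟩
        left_inv := fun v => by by_cases hv : v.1 = 0 <;> simp [hv, Subtype.ext_iff]
        right_inv := fun o => by
          rcases o with _ | ⟨x, hx⟩
          · simp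
          · simp [hx.1] }
    rw [Nat.card_congr e, Finite.card_option]
  have hodd : ¬ 2 ∣ Nat.card X := by
    have hz := h.zeros
    rw [hcard] at hz
    obtain ⟨i, rfl⟩ : ∃ i, j = i + 2 := ⟨j - 2, by omega⟩
    rw [pow_add, pow_add] at hz
    omega
  obtain ⟨x, hx⟩ := hH.nonempty_fixed_point_of_prime_not_dvd_card X hodd
  exact ⟨x.1, x.2.1, x.2.2, fun g hg => congrArg Subtype.val (hx ⟨g, hg⟩)⟩

omit [Fintype F] in
theorem isPGroup_rad (p : W) : IsPGroup 2 (Rad Q p) := fun g =>
  ⟨2, Subtype.ext (rad_pow_four (Q := Q) g.2)⟩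

/-- A Sylow subgroup fixing `p` contains the radical. -/
theorem rad_le {p : W} (H : Sylow 2 (Iso Q)) (hH : ∀ g ∈ (H : Subgroup (Iso Q)), g.1 p = p) :
    Rad Q p ≤ H := by
  haveI : Fact (Nat.Prime 2) := ⟨Nat.prime_two⟩
  have hnorm : (H : Subgroup (Iso Q)) ≤ Subgroup.normalizer (Rad Q p : Set (Iso Q)) := by
    intro g hg
    rw [Subgroup.mem_normalizer_iff]
    intro r
    refine ⟨conj_mem_rad (hH g hg), fun hr => ?_⟩
    have h' := conj_mem_rad (hH g⁻¹ (inv_mem hg)) hr
    rwa [show g⁻¹ * (g * r * g⁻¹) * g⁻¹⁻¹ = r by group] at h'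
  have hsup : IsPGroup 2 ((H : Subgroup (Iso Q)) ⊔ Rad Q p : Subgroup (Iso Q)) :=
    H.2.to_sup_of_normal_right' (isPGroup_rad p) hnorm
  rw [← H.3 hsup le_sup_left]
  exact le_sup_right

/-- Extension of an isometry of the complement of a pair. -/
noncomputable def extIso {p a : W} (hp : Q p = 0) (ha : Q a = 0) (hpa : polar Q p a = 1) :
    Iso (Q.comp (perpPair Q p a).subtype) →* Iso Q where
  toFun g := ⟨
    { toFun := fun v => (splitEquiv hpa).symm (g.1 (splitEquiv hpa v).1, (splitEquiv hpa v).2)
      invFun := fun v => (splitEquiv hpa).symm (g.1.symm (splitEquiv hpa v).1, (splitEquiv hpa v).2)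
      map_add' := fun u v => by
        have e1 : (splitEquiv hpa (u + v)).1 = (splitEquiv hpa u).1 + (splitEquiv hpa v).1 := by
          apply Subtype.ext
          simp only [splitEquiv, Equiv.coe_fn_mk, Submodule.coe_add, polar_add_right, add_smul]
          abel
        show (((g.1 (splitEquiv hpa (u + v)).1 : perpPair Q p a) : W) + polar Q a (u + v) • p + polar Q p (u + v) • a) = _
        rw [e1, map_add, Submodule.coe_add, polar_add_right, polar_add_right, add_smul, add_smul]
        show _ = ((g.1 (splitEquiv hpa u).1 : perpPair Q p a) : W) + polar Q a u • p + polar Q p u • a +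
          (((g.1 (splitEquiv hpa v).1 : perpPair Q p a) : W) + polar Q a v • p + polar Q p v • a)
        abel
      map_smul' := fun c v => by
        have e1 : (splitEquiv hpa (c • v)).1 = c • (splitEquiv hpa v).1 := by
          apply Subtype.ext
          simp only [splitEquiv, Equiv.coe_fn_mk, Submodule.coe_smul, polar_smul_right, smul_eq_mul, smul_add, mul_smul]
        show (((g.1 (splitEquiv hpa (c • v)).1 : perpPair Q p a) : W) + polar Q a (c • v) • p + polar Q p (c • v) • a) = _
        rw [e1, map_smul, Submodule.coe_smul, polar_smul_right, polar_smul_right, smul_eq_mul, smul_eq_mul, mul_smul, mul_smul]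
        show _ = c • (((g.1 (splitEquiv hpa v).1 : perpPair Q p a) : W) + polar Q a v • p + polar Q p v • a)
        rw [smul_add, smul_add]
      left_inv := fun v => by simp
      right_inv := fun v => by simp }, fun v => by
      show Q ((splitEquiv hpa).symm (g.1 (splitEquiv hpa v).1, (splitEquiv hpa v).2)) = Q v
      conv_rhs => rw [← (splitEquiv hpa).symm_apply_apply v]
      rw [form_split hp ha hpa, form_split hp ha hpa]
      exact congrArg (· + _) (g.2 _)⟩
  map_one' := by
    apply Subtype.ext
    apply LinearEquiv.ext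
    intro v
    exact (splitEquiv hpa).symm_apply_apply v
  map_mul' g g' := by
    apply Subtype.ext
    apply LinearEquiv.ext
    intro v
    show (splitEquiv hpa).symm ((g * g').1 _, _) = (splitEquiv hpa).symm (g.1 (splitEquiv hpa ((splitEquiv hpa).symm (g'.1 _, _))).1, (splitEquiv hpa ((splitEquiv hpa).symm (g'.1 _, _))).2)
    simp only [Equiv.apply_symm_apply]
    rfl

theorem extIso_injective {p a : W} (hp : Q p = 0) (ha : Q a = 0) (hpa : polar Q p a = 1) :
    Function.Injective (extIso hp ha hpa) := by
  intro g g' e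
  apply Subtype.ext
  apply LinearEquiv.ext
  intro w
  have h := congrArg (fun k : Iso Q => k.1 ((splitEquiv hpa).symm (w, 0, 0))) e
  simp only [extIso, MonoidHom.coe_mk, OneHom.coe_mk, LinearEquiv.coe_mk, LinearMap.coe_mk, AddHom.coe_mk,
    Equiv.apply_symm_apply, EmbeddingLike.apply_eq_iff_eq, Prod.mk.injEq, and_true] at h
  exact h

theorem mem_range_extIso {p a : W} (hp : Q p = 0) (ha : Q a = 0) (hpa : polar Q p a = 1) (g : Iso Q) :
    g ∈ (extIso hp ha hpa).range ↔ g.1 p = p ∧ g.1 a = a := by
  have hap : polar Q a p = 1 := by rw [polar_comm]; exact hpa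
  have sp : splitEquiv hpa p = (0, 1, 0) := by
    rw [← (splitEquiv hpa).symm.injective.eq_iff, Equiv.symm_apply_apply]
    show p = (0 : W) + (1 : F) • p + (0 : F) • a
    simp
  have sa : splitEquiv hpa a = (0, 0, 1) := by
    rw [← (splitEquiv hpa).symm.injective.eq_iff, Equiv.symm_apply_apply]
    show a = (0 : W) + (0 : F) • p + (1 : F) • a
    simp
  constructor
  · rintro ⟨h, rfl⟩
    constructor
    · show (splitEquiv hpa).symm (h.1 (splitEquiv hpa p).1, (splitEquiv hpa p).2) = p
      rw [sp, map_zero, ← sp, Equiv.symm_apply_apply]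
    · show (splitEquiv hpa).symm (h.1 (splitEquiv hpa a).1, (splitEquiv hpa a).2) = a
      rw [sa, map_zero, ← sa, Equiv.symm_apply_apply]
  · rintro ⟨hgp, hga⟩
    have hmem : ∀ w : perpPair Q p a, g.1 w ∈ perpPair Q p a := fun w => mem_perpPair.2
      ⟨by
        have e := polar_iso g p (w : W)
        rw [hgp] at e
        exact e.trans (mem_perpPair.1 w.2).1, by
        have e := polar_iso g a (w : W)
        rw [hga] at e
        exact e.trans (mem_perpPair.1 w.2).2⟩
    have hmem' : ∀ w : perpPair Q p a, g.1.symm w ∈ perpPair Q p a := fun w => mem_perpPair.2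
      ⟨by rw [← polar_iso g, hgp, g.1.apply_symm_apply, (mem_perpPair.1 w.2).1],
       by rw [← polar_iso g, hga, g.1.apply_symm_apply, (mem_perpPair.1 w.2).2]⟩
    refine ⟨⟨LinearEquiv.ofLinear ((g.1 : W →ₗ[F] W).restrict fun w hw => hmem ⟨w, hw⟩)
      ((g.1.symm : W →ₗ[F] W).restrict fun w hw => hmem' ⟨w, hw⟩) ?_ ?_, ?_⟩, ?_⟩

    · exact LinearMap.ext fun w => Subtype.ext (g.1.apply_symm_apply _)
    · exact LinearMap.ext fun w => Subtype.ext (g.1.symm_apply_apply _)
    · exact fun w => g.2 (w : W)
    · apply Subtype.ext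
      apply LinearEquiv.ext
      intro v
      show (g.1 ((splitEquiv hpa v).1 : W)) + polar Q a v • p + polar Q p v • a = g.1 v
      conv_rhs => rw [← (splitEquiv hpa).symm_apply_apply v]
      show _ = g.1 (((splitEquiv hpa v).1 : W) + polar Q a v • p + polar Q p v • a)
      rw [map_add, map_add, map_smul, map_smul, hgp, hga]

theorem odd_index_comap {p a : W} (hp : Q p = 0) (ha : Q a = 0) (hpa : polar Q p a = 1)
    (H : Sylow 2 (Iso Q)) (hH : ∀ g ∈ (H : Subgroup (Iso Q)), g.1 p = p) :
    ¬ 2 ∣ ((H : Subgroup (Iso Q)).comap (extIso hp ha hpa)).index := by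
  haveI : Fact (Nat.Prime 2) := ⟨Nat.prime_two⟩
  haveI : Finite (Iso Q) := Finite.of_injective (fun g : Iso Q => (g.1 : W → W))
    fun g g' e => Subtype.ext (LinearEquiv.ext (congrFun e))
  set S : Subgroup (Iso Q) := (extIso hp ha hpa).range
  let Gp : Subgroup (Iso Q) :=
    { carrier := {g | g.1 p = p}
      one_mem' := rfl
      mul_mem' := fun {x y} hx hy => show x.1 (y.1 p) = p by rw [show y.1 p = p from hy]; exact hx
      inv_mem' := fun {x} hx => by
        show x.1⁻¹ p = p
        conv_lhs => rw [← (show x.1 p = p from hx)]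
        exact x.1.symm_apply_apply p }
  have hHG : (H : Subgroup (Iso Q)) ≤ Gp := hH
  have hSG : S ≤ Gp := fun g hg => ((mem_range_extIso hp ha hpa g).1 hg).1
  have hdec : ∀ g ∈ Gp, ∃ s ∈ S, s⁻¹ * g ∈ (H : Subgroup (Iso Q)) := by
    intro g hg
    have hgp : g.1 p = p := hg
    have e1 : Q (g.1⁻¹ a) = 0 := by
      have := g.2 (g.1⁻¹ a)
      rw [show g.1 (g.1⁻¹ a) = a from g.1.apply_symm_apply a, ha] at this
      exact this.symm
    have e2 : polar Q p (g.1⁻¹ a) = 1 := by
      rw [← polar_iso g, hgp, show g.1 (g.1⁻¹ a) = a from g.1.apply_symm_apply a, hpa]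
    obtain ⟨r, hr, hra⟩ := exists_rad_move hp ha e1 hpa e2
    refine ⟨g * r, (mem_range_extIso hp ha hpa _).2 ⟨?_, ?_⟩, ?_⟩
    · show g.1 (r.1 p) = p
      rw [hr.1, hgp]
    · show g.1 (r.1 a) = a
      rw [hra]
      exact g.1.apply_symm_apply a
    · rw [mul_inv_rev, inv_mul_cancel_right]
      exact rad_le H hH (inv_mem hr)
  have h1 : ((H : Subgroup (Iso Q)).comap (extIso hp ha hpa)).index
      = ((H : Subgroup (Iso Q)).subgroupOf S).index := by
    rw [Subgroup.index_comap]
    rfl
  have h2 : ((H : Subgroup (Iso Q)).subgroupOf S).index = ((H : Subgroup (Iso Q)).subgroupOf Gp).index := by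
    refine Nat.card_congr (Equiv.ofBijective (Subgroup.quotientSubgroupOfEmbeddingOfLE (H : Subgroup (Iso Q)) hSG) ⟨(Subgroup.quotientSubgroupOfEmbeddingOfLE _ hSG).injective, ?_⟩)
    intro q
    induction q using QuotientGroup.induction_on with
    | H g =>
      obtain ⟨s, hs, hsg⟩ := hdec g.1 g.2
      refine ⟨QuotientGroup.mk ⟨s, hs⟩, ?_⟩
      rw [Subgroup.quotientSubgroupOfEmbeddingOfLE_apply_mk]
      exact QuotientGroup.eq.2 hsg
  rw [h1, h2]
  intro hd
  exact H.not_dvd_index (hd.trans ((H : Subgroup (Iso Q)).relIndex_dvd_index_of_le hHG))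

/-- Sylow 2-subgroups meet nontrivially. -/
theorem inf_ne_bot (hF : Fintype.card F = 2) : ∀ (j : ℕ), 1 ≤ j → ∀ (W : Type v) [AddCommGroup W] [Module F W] [Finite W]
    (Q : QuadraticForm F W), PlusData Q j → ∀ H K : Sylow 2 (Iso Q), (H : Subgroup (Iso Q)) ⊓ K ≠ ⊥ := by
  intro j
  induction j with
  | zero => intro h; omega
  | succ j ih =>
    intro _ W _ _ _ Q hQ H K
    haveI : Fact (Nat.Prime 2) := ⟨Nat.prime_two⟩
    haveI : Finite (Iso Q) := Finite.of_injective (fun g : Iso Q => (g.1 : W → W))
      fun g g' e => Subtype.ext (LinearEquiv.ext (congrFun e))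
    classical
    rcases Nat.eq_zero_or_pos j with rfl | hj
    · have hz : Nat.card {v : W // Q v = 0} = 3 := by have := hQ.zeros; simp at this; omega
      haveI := Fintype.ofFinite W
      obtain ⟨z, hz1⟩ : ∃ z, Q z ≠ 0 := by
        by_contra hh
        push Not at hh
        rw [Nat.card_congr (Equiv.subtypeUnivEquiv hh), hQ.card] at hz
        omega
      have hz1' := (eq_zero_or_one hF _).resolve_left hz1
      have huniq : ∀ v, Q v ≠ 0 → v = z := by
        intro v hv
        have hcard : Fintype.card {v : W // ¬ Q v = 0} ≤ 1 := by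
          rw [Fintype.card_subtype_compl, ← Nat.card_eq_fintype_card, ← Nat.card_eq_fintype_card, hQ.card, hz]
          norm_num
        exact congrArg Subtype.val ((Fintype.card_le_one_iff.1 hcard) ⟨v, hv⟩ ⟨z, hz1⟩)
      have hz0 : z ≠ 0 := fun e => hz1 (by rw [e, map_zero])
      have hinv : ∀ g : Iso Q, g ^ 2 = 1 := by
        intro g
        have hgz : g.1 z = z := huniq _ (by rw [g.2]; exact hz1)
        obtain ⟨w, hw⟩ := hQ.nondeg z hz0
        apply Subtype.ext
        apply LinearEquiv.ext
        intro v
        show g.1 (g.1 v) = v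
        by_cases hv : Q v = 0
        · by_cases h0 : v = 0
          · simp [h0]
          by_cases hv2 : g.1 v = v
          · rw [hv2, hv2]
          by_contra hne
          have a1 : Q (g.1 v) = 0 := (g.2 v).trans hv
          have a2 : Q (g.1 (g.1 v)) = 0 := (g.2 _).trans a1
          let z0 : {v : W // Q v = 0} := ⟨0, map_zero _⟩
          let z1 : {v : W // Q v = 0} := ⟨v, hv⟩
          let z2 : {v : W // Q v = 0} := ⟨g.1 v, a1⟩
          let z3 : {v : W // Q v = 0} := ⟨g.1 (g.1 v), a2⟩
          have hsub : ({z0, z1, z2, z3} : Finset {v : W // Q v = 0}).card ≤ 3 := by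
            rw [← hz, Nat.card_eq_fintype_card]; exact Finset.card_le_univ _
          rw [Finset.card_eq_four.2 ⟨z0, z1, z2, z3, ?_, ?_, ?_, ?_, ?_, ?_, rfl⟩] at hsub
          · omega
          all_goals simp only [z0, z1, z2, z3, ne_eq, Subtype.mk.injEq]
          · exact fun e => h0 e.symm
          · exact fun e => h0 (g.1.map_eq_zero_iff.1 e.symm)
          · exact fun e => h0 (g.1.map_eq_zero_iff.1 (g.1.map_eq_zero_iff.1 e.symm))
          · exact fun e => hv2 e.symm
          · exact fun e => hne e.symm
          · exact fun e => hv2 (g.1.injective e).symm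
        · rw [huniq v hv, hgz, hgz]
      have htop : ∀ L : Sylow 2 (Iso Q), (L : Subgroup (Iso Q)) = ⊤ := fun L =>
        (L.3 (Q := ⊤) (fun g => ⟨1, Subtype.ext (by simpa using hinv g.1)⟩) le_top).symm
      rw [htop H, htop K, top_inf_eq]
      intro htb
      obtain ⟨w, hw⟩ := hQ.nondeg z hz0
      let R : Iso Q :=
        ⟨LinearEquiv.ofInvolutive (LinearMap.id + (polarBilin Q z).smulRight z) (fun v => by
          show (v + polar Q z v • z) + polar Q z (v + polar Q z v • z) • z = v
          rw [polar_add_right, polar_smul_right, polar_self_zero, smul_zero, add_zero, add_assoc,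
            add_self_W F, add_zero]), fun v => by
          show Q (v + polar Q z v • z) = Q v
          have : Q (v + polar Q z v • z) = Q v + Q (polar Q z v • z) + polar Q v (polar Q z v • z) := by simp [polar]
          rw [this, QuadraticMap.map_smul, hz1', polar_smul_right, polar_comm Q v z, smul_eq_mul, smul_eq_mul, mul_one,
            add_assoc, add_self_F hF, add_zero]⟩
      have : R = 1 := (Subgroup.eq_bot_iff_forall _).1 htb R trivial
      have e := congrArg (fun g : Iso Q => g.1 w) this
      simp only [R, LinearEquiv.coe_ofInvolutive, LinearMap.add_apply, LinearMap.id_apply] at e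
      change w + polar Q z w • z = w at e
      rw [add_eq_left, smul_eq_zero] at e
      rcases e with e | e
      · exact hw e
      · exact hz0 e
    · obtain ⟨p, hp0, hp, hpH⟩ := exists_fixed_singular (by omega) hQ H.2
      obtain ⟨a, ha0, ha, haK⟩ := exists_fixed_singular (by omega) hQ K.2
      intro hbot
      rcases eq_zero_or_one hF (polar Q p a) with h0 | h1
      · -- a common Siegel element
        obtain ⟨q, hq⟩ := exists_partner hF hQ hp hp0
        obtain ⟨w, hw, hwn, hrK⟩ : ∃ w, ∃ hw : polar Q p w = 0, w ∉ Submodule.span F {p} ∧ siegel p w hp hw ∈ (K : Subgroup (Iso Q)) := by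
          by_cases hpa : a = p
          · subst hpa
            obtain ⟨w, hw, hwn⟩ : ∃ w, polar Q a w = 0 ∧ w ∉ Submodule.span F {a} := by
              by_contra hh
              push Not at hh
              have hle : Nat.card W ≤ Nat.card (F × F) := by
                refine Nat.card_le_card_of_surjective (fun x : F × F => x.1 • a + x.2 • q) fun v => ?_
                have hv : polar Q a (v + polar Q a v • q) = 0 := by
                  rw [polar_add_right, polar_smul_right, hq.2, smul_eq_mul, mul_one, add_self_F hF]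
                obtain ⟨c, hc⟩ := Submodule.mem_span_singleton.1 (hh _ hv)
                refine ⟨(c, polar Q a v), ?_⟩
                show c • a + polar Q a v • q = v
                rw [hc, add_assoc, add_self_W F, add_zero]
              rw [hQ.card, Nat.card_prod, Nat.card_eq_fintype_card, hF, pow_succ] at hle
              have := Nat.pow_le_pow_right (show 4 > 0 by norm_num) hj
              omega
            exact ⟨w, hw, hwn, rad_le K haK (siegel_mem_rad _ _ hp hw)⟩
          · refine ⟨a, h0, ?_, rad_le K haK ⟨?_, fun v hv => ?_⟩⟩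
            · intro hmem
              obtain ⟨c, hc⟩ := Submodule.mem_span_singleton.1 hmem
              rcases eq_zero_or_one hF c with rfl | rfl
              · rw [zero_smul] at hc; exact ha0 hc.symm
              · rw [one_smul] at hc; exact hpa hc.symm
            · rw [siegel_apply, polar_self_zero, h0]; simp
            · rw [siegel_apply, hv, zero_smul, add_zero, ha, zero_smul, add_zero, add_sub_cancel_left]
              exact Submodule.smul_mem _ _ (Submodule.mem_span_singleton_self a)
        have hone : siegel p w hp hw = 1 := by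
          have : siegel p w hp hw ∈ (H : Subgroup (Iso Q)) ⊓ K :=
            Subgroup.mem_inf.2 ⟨rad_le H hpH (siegel_mem_rad _ _ hp hw), hrK⟩
          rwa [hbot, Subgroup.mem_bot] at this
        have e := congrArg (fun g : Iso Q => g.1 q) hone
        simp only [siegel_apply, OneMemClass.coe_one, LinearEquiv.coe_one, id_eq, hq.2, one_smul] at e
        rw [add_assoc, add_eq_left] at e
        apply hwn
        refine Submodule.mem_span_singleton.2 ⟨polar Q w q + Q w, ?_⟩
        rw [add_smul]
        calc polar Q w q • p + Q w • p = (polar Q w q • p + (w + Q w • p)) + w := by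
              rw [show polar Q w q • p + (w + Q w • p) + w = polar Q w q • p + Q w • p + (w + w) by abel,
                add_self_W F, add_zero]
          _ = w := by rw [e, zero_add]
      · -- induction
        have hD := plusData_perp hF hQ hp ha h1
        set ι := extIso hp ha h1
        have hH' : IsPGroup 2 ((H : Subgroup (Iso Q)).comap ι) :=
          H.2.comap_of_injective ι (extIso_injective hp ha h1)
        have hK' : IsPGroup 2 ((K : Subgroup (Iso Q)).comap ι) :=
          K.2.comap_of_injective ι (extIso_injective hp ha h1)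
        have hKi : ¬ 2 ∣ ((K : Subgroup (Iso Q)).comap ι).index := by
          have hap : polar Q a p = 1 := by rw [polar_comm]; exact h1
          have h' := odd_index_comap ha hp hap K haK
          rw [Subgroup.index_comap] at h' ⊢
          rwa [show (extIso ha hp hap).range = ι.range from
            SetLike.ext fun g => by rw [mem_range_extIso, mem_range_extIso]; exact and_comm] at h'
        have := ih hj (perpPair Q p a) (Q.comp (perpPair Q p a).subtype) hD
          (hH'.toSylow (odd_index_comap hp ha h1 H hpH)) (hK'.toSylow hKi)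
        apply this
        rw [IsPGroup.toSylow_coe, IsPGroup.toSylow_coe, ← Subgroup.comap_inf, hbot, MonoidHom.comap_bot,
          MonoidHom.ker_eq_bot_iff]
        exact extIso_injective hp ha h1

end Cfsg.Agent.OrthTwoSylow
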