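import Cfsg.Prelude.Def_Classical
import Cfsg.Agent.OrthTwoSylow.Main

/-! The standard plus type space. -/

set_option autoImplicit false

open scoped Pointwise

namespace Cfsg.Agent.OrthTwoSylow

open QuadraticMap

variable (F : Type*) [Field F]

/-- `quadFormPlus` as a quadratic form. -/
def plusForm (m : ℕ) : QuadraticForm F (Fin m ⊕ Fin m → F) :=
  ∑ i : Fin m, linMulLin (LinearMap.proj (Sum.inl i) : (Fin m ⊕ Fin m → F) →ₗ[F] F) (LinearMap.proj (Sum.inr i))

theorem plusForm_apply (m : ℕ) (v : Fin m ⊕ Fin m → F) : plusForm F m v = Cfsg.quadFormPlus m F v := by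
  simp [plusForm, Cfsg.quadFormPlus]

variable [Fintype F] [CharP F 2]

theorem zeros_plus (hF : Fintype.card F = 2) (m : ℕ) :
    2 * Nat.card {v : Fin m ⊕ Fin m → F // plusForm F m v = 0} = 4 ^ m + 2 ^ m := by
  induction m with
  | zero =>
    rw [Nat.card_congr (Equiv.subtypeUnivEquiv fun v => by simp [plusForm_apply, Cfsg.quadFormPlus])]
    simp
  | succ m ih =>
    let e : (Fin (m + 1) ⊕ Fin (m + 1) → F) ≃ (Fin m ⊕ Fin m → F) × F × F :=
      { toFun := fun v => (Sum.elim (fun i => v (.inl i.succ)) (fun i => v (.inr i.succ)), v (.inl 0), v (.inr 0))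
        invFun := fun x => Sum.elim (Fin.cons x.2.1 fun i => x.1 (.inl i)) (Fin.cons x.2.2 fun i => x.1 (.inr i))
        left_inv := fun v => by
          funext i
          rcases i with i | i <;> refine Fin.cases ?_ ?_ i <;> simp
        right_inv := fun x => by
          refine Prod.ext ?_ (Prod.ext ?_ ?_)
          · funext i; rcases i with i | i <;> simp
          · simp
          · simp }
    have h1 : Nat.card {v : Fin (m + 1) ⊕ Fin (m + 1) → F // plusForm F (m + 1) v = 0}
        = Nat.card {x : (Fin m ⊕ Fin m → F) × F × F // plusForm F m x.1 + x.2.1 * x.2.2 = 0} := by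
      refine Nat.card_congr (e.subtypeEquiv fun v => ?_)
      simp [e, plusForm_apply, Cfsg.quadFormPlus, Fin.sum_univ_succ, add_comm]
    rw [h1, card_zeros_add hF, Nat.card_fun, Nat.card_eq_fintype_card (α := F), hF, Nat.card_sum,
      Nat.card_fin, pow_succ (4 : ℕ), pow_succ 2 m]
    have h4 : (2 : ℕ) ^ (m + m) = 4 ^ m := by rw [← two_mul, pow_mul]; norm_num
    omega

theorem plusData (hF : Fintype.card F = 2) (m : ℕ) : PlusData (plusForm F m) m := by
  refine ⟨fun v hv => ?_, ?_, zeros_plus F hF m⟩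
  · obtain ⟨i, hi⟩ := Function.ne_iff.1 hv
    classical
    rcases i with i | i
    · refine ⟨Pi.single (.inr i) 1, ?_⟩
      simpa [polar, plusForm_apply, Cfsg.quadFormPlus, Pi.single_apply, mul_add, add_mul, Finset.sum_add_distrib] using hi
    · refine ⟨Pi.single (.inl i) 1, ?_⟩
      simpa [polar, plusForm_apply, Cfsg.quadFormPlus, Pi.single_apply, mul_add, add_mul, Finset.sum_add_distrib] using hi
  · rw [Nat.card_fun, Nat.card_eq_fintype_card (α := F), hF, Nat.card_sum, Nat.card_fin, ← two_mul, pow_mul]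
    norm_num

/-- Matrices as linear equivalences. -/
noncomputable def matEquiv (m : ℕ) : GL (Fin m ⊕ Fin m) F ≃* ((Fin m ⊕ Fin m → F) ≃ₗ[F] (Fin m ⊕ Fin m → F)) :=
  Matrix.GeneralLinearGroup.toLin.trans (LinearMap.GeneralLinearGroup.generalLinearEquiv _ _)

omit [Fintype F] [CharP F 2] in
theorem matEquiv_apply (m : ℕ) (g : GL (Fin m ⊕ Fin m) F) (v : Fin m ⊕ Fin m → F) :
    matEquiv F m g v = (g : Matrix (Fin m ⊕ Fin m) (Fin m ⊕ Fin m) F).mulVec v := rfl

/-- The isometry group as `Iso`. -/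
noncomputable def isoHom (m : ℕ) : Cfsg.isometryGroup F (Cfsg.quadFormPlus m F) →* Iso (plusForm F m) where
  toFun g := ⟨matEquiv F m g.1, fun v => by
    rw [plusForm_apply, plusForm_apply, matEquiv_apply]
    exact g.2 v v⟩
  map_one' := Subtype.ext (map_one _)
  map_mul' _ _ := Subtype.ext (map_mul _ _ _)

omit [Fintype F] [CharP F 2] in
theorem isoHom_injective (m : ℕ) : Function.Injective (isoHom F m) :=
  fun _ _ h => Subtype.ext ((matEquiv F m).injective (congrArg Subtype.val h))

omit [Fintype F] [CharP F 2] in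
theorem isoHom_surjective (m : ℕ) : Function.Surjective (isoHom F m) := by
  intro g
  refine ⟨⟨(matEquiv F m).symm g.1, ?_⟩, Subtype.ext ((matEquiv F m).apply_symm_apply _)⟩
  intro u _
  have h := g.2 u
  rw [plusForm_apply, plusForm_apply] at h
  show Cfsg.quadFormPlus m F (((matEquiv F m).symm g.1 : GL (Fin m ⊕ Fin m) F).val.mulVec u) = _
  rw [← matEquiv_apply, MulEquiv.apply_symm_apply]
  exact h

theorem isometryGroup_inf_ne_bot (hF : Fintype.card F = 2) {m : ℕ} (hm : 1 ≤ m)
    (H : Sylow 2 (Cfsg.isometryGroup F (Cfsg.quadFormPlus m F)))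
    (x : Cfsg.isometryGroup F (Cfsg.quadFormPlus m F)) :
    (H : Subgroup (Cfsg.isometryGroup F (Cfsg.quadFormPlus m F))) ⊓ MulAut.conj x • (H : Subgroup _) ≠ ⊥ := by
  intro hbot
  haveI : Fact (Nat.Prime 2) := ⟨Nat.prime_two⟩
  have key := inf_ne_bot hF m hm (Fin m ⊕ Fin m → F) (plusForm F m) (plusData F hF m)
    (H.mapSurjective (isoHom_surjective F m)) ((x • H).mapSurjective (isoHom_surjective F m))
  rw [Sylow.coe_mapSurjective, Sylow.coe_mapSurjective, Sylow.coe_subgroup_smul,
    ← Subgroup.map_inf _ _ _ (isoHom_injective F m)] at key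
  apply key
  rw [hbot, Subgroup.map_bot]

end Cfsg.Agent.OrthTwoSylow
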